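import Cfsg.Agent.H576.Ext.Row
import Cfsg.Agent.H699.CusG
import Cfsg.Agent.H624.ExtOrthBase

/-!
# Orthogonal groups: the row theorem (helper624, S4832)
-/

set_option autoImplicit false

open scoped ComplexConjugate
open Cfsg

namespace Cfsg.Agent.H624.ExtO

open Cfsg.Agent.H477.HC Cfsg.Agent.H53.HC Cfsg.Agent.Characters Module Cfsg.Agent.H576.Ext
  QuadraticMap Cfsg.Agent.LieClassical.OrthCore Cfsg.Agent.LieClassical.OrthTrans
  Cfsg.Agent.LieClassical.OrthSimple Cfsg.Agent.ClassicalGeometry.OrthSemi Cfsg.Agent.ClassicalGeometry.OrthAut1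

universe u v w

variable {K : Type u} [Field K] {V : Type v} [AddCommGroup V] [Module K V] {F : CForm K V}

/-- **row theorem for the orthogonal groups** -/
theorem hasExt_hc [Finite K] [FiniteDimensional K V] [Finite V] (h : IsQuad F) (hG : Good (quadOf F h))
    (hs : Function.Surjective (Psi (quadOf F h))) {k : ℕ} (hk : 3 ≤ k) {W₀ : Submodule K V} (hW₀ : W₀ ∈ F.Om k)
    (h3 : ∃ t : K, t ≠ 0 ∧ t ≠ 1) (hidx : (commutator F.iso).index ∣ 8) {r : ℕ} (hr : r.Prime)
    (hd : (r ≠ 2 ∧ r ∣ dg F k) ∨ (r = 2 ∧ 16 ∣ dg F k)) : HasExt r (P (quadOf F h)) := by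
  have hfi := finite_iso F
  have hfo := finite_Om F k
  let _ := Fintype.ofFinite (F.Om k)
  have hfE : Finite ↥(E (quadOf F h)) := Finite.of_surjective _ (toE_surjective h hG)
  have hσ : F.σ = RingHom.id K := RingHom.ext h.σ
  obtain ⟨c, hc, hgen⟩ := exists_cusG (K := K) rfl k (by omega) (by rintro ⟨-, rfl⟩; omega) (by rintro ⟨-, rfl⟩; omega)
  rw [← hσ] at hc hgen
  obtain ⟨θ, e, hθ, he, he1, he2, he0, h0⟩ := exists_below (qE h hG) (qE_surjective h hG)
    (fun n hn => (qE_ker h hG n).1 hn) (by omega) hW₀ hc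
  have hN : HasRoots F (commutator F.iso) := hasRoots_of_comm F le_rfl h3
  let _ := Fintype.ofFinite (commutator F.iso)
  refine ⟨θ, hθ, ?_, ext_hc F (by omega) (hNn h hG) hN (hasLevi_bot F hN k) hc.irr hc.cusp hc.dual hc.self (hc.opp hk)
    (fun τ hτ => hgen τ hτ) hc.nu (center_P h hG) (qE h hG) (qE_surjective h hG) (qE_ker h hG)
    (fun α => aut_of_range h hG (hs α)) hθ h0⟩
  rw [H670.PSing.charDegree_eq_of he]
  exact dvd_of_index hr hd he1 he0 he2 hidx

end Cfsg.Agent.H624.ExtO
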