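import Mathlib
import Cfsg.Prelude.Def_CaseTheorems
import Cfsg.Agent.S3116
import Cfsg.Agent.OddHalf.D3.BTwo.Dih
import Cfsg.Agent.Lib.HallHigman
import Cfsg.Agent.Lib.Cores
import Cfsg.Agent.H235.SdSolv
import Cfsg.Agent.H541.AutFrattini

/-!
# Solvable groups with trivial odd core and dihedral or semidihedral Sylow 2-subgroups

All nontrivial elements of odd order are conjugate.
-/

set_option autoImplicit false

namespace Cfsg.Agent.H624.TameL2

open Subgroup

/-- A 2-group with a cyclic subgroup of index at most two: the order of its automorphism group. -/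
theorem card_aut {Q : Type*} [Group Q] [Finite Q] (hQ : IsPGroup 2 Q) (A : Subgroup Q) (hA : IsCyclic A)
    (hi : A.index ≤ 2) : ∃ a : ℕ, Nat.card (MulAut Q) ∣ 2 ^ a * 3 := by
  have hp : Fact (Nat.Prime 2) := ⟨Nat.prime_two⟩
  obtain ⟨n, hn⟩ := IsPGroup.iff_card.1 hQ
  obtain ⟨r, hr⟩ : ∃ r, (frattini Q).index = 2 ^ r := by
    obtain ⟨r, _, hr⟩ := (Nat.dvd_prime_pow Nat.prime_two).1 (hn ▸ index_dvd_card (frattini Q))
    exact ⟨r, hr⟩
  have h4 : (frattini Q).index ≤ 4 := by
    set π := QuotientGroup.mk' (frattini Q) with hπ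
    have h1 : Nat.card (A.map π) * (A.map π).index = (frattini Q).index := by
      rw [card_mul_index]; rfl
    have h2 : (A.map π).index ≤ 2 :=
      (Nat.le_of_dvd (Nat.pos_of_ne_zero index_ne_zero_of_finite)
        (index_map_dvd A (QuotientGroup.mk'_surjective _))).trans hi
    have h3 : Nat.card (A.map π) ≤ 2 := by
      have hc : IsCyclic (A.map π) :=
        isCyclic_of_surjective _ (π.subgroupMap_surjective A)
      obtain ⟨g, hg⟩ := hc.exists_generator
      have h5 : Nat.card (A.map π) = orderOf g := by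
        rw [← Nat.card_zpowers]
        exact Nat.card_congr (Equiv.subtypeUnivEquiv hg).symm
      rw [h5]
      apply Nat.le_of_dvd (by norm_num)
      apply orderOf_dvd_of_pow_eq_one
      apply Subtype.ext
      exact H541.AutFrattini.quot_pow hQ _
    calc (frattini Q).index = _ := h1.symm
      _ ≤ 2 * 2 := Nat.mul_le_mul h3 h2
  have hr2 : r ≤ 2 := by
    rw [hr] at h4
    by_contra hcon
    have : 2 ^ 3 ≤ 2 ^ r := Nat.pow_le_pow_right (by norm_num) (by omega)
    omega
  have h := H541.AutFrattini.card_aut_dvd hn hr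
  interval_cases r
  · exact ⟨0, by simpa using h.trans (by norm_num)⟩
  · refine ⟨1 * (n - 1), h.trans ?_⟩
    simp
  · refine ⟨2 * (n - 2) + 1, h.trans ?_⟩
    rw [Finset.prod_range_succ, Finset.prod_range_succ, Finset.prod_range_zero, pow_succ]
    norm_num
    exact ⟨1, by ring⟩

theorem L2 {X : Type*} [Group X] [Finite X] (hsol : Group.IsSolvable X) (h1 : Cfsg.pPrimeCore 2 X = ⊥)
    (P : Sylow 2 X)
    (hP : (∃ n : ℕ, 3 ≤ n ∧ Nonempty ((P : Subgroup X) ≃* DihedralGroup (2 ^ (n - 1)))) ∨
      Cfsg.IsQuasiDihedral (P : Subgroup X)) :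
    ∃ s : X, ∀ g : X, ¬ 2 ∣ orderOf g → g = 1 ∨ IsConj g s := by
  have hp : Fact (Nat.Prime 2) := ⟨Nat.prime_two⟩
  have hp3 : Fact (Nat.Prime 3) := ⟨Nat.prime_three⟩
  set Q := Cfsg.pCore 2 X with hQdef
  have hQC : centralizer (Q : Set X) ≤ Q := Lib.HallHigman.centralizer_pCore_le_of_solvable 2 h1
  have hQn : Q.Normal := Lib.Cores.pCore_normal 2
  have hQ2 : IsPGroup 2 Q := Lib.Cores.pCore_isPGroup 2
  have hQP : Q ≤ (P : Subgroup X) := Lib.Cores.pCore_le_sylow P
  have hP' : (∃ m : ℕ, 2 ≤ m ∧ Nonempty ((P : Subgroup X) ≃* DihedralGroup m)) ∨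
      Cfsg.IsQuasiDihedral (P : Subgroup X) := by
    refine hP.imp ?_ id
    rintro ⟨n, hn, h⟩
    refine ⟨_, ?_, h⟩
    calc 2 = 2 ^ 1 := by norm_num
      _ ≤ 2 ^ (n - 1) := Nat.pow_le_pow_right (by norm_num) (by omega)
  have hP4 : (∃ m : ℕ, 4 ≤ m ∧ Nonempty ((P : Subgroup X) ≃* DihedralGroup m)) ∨
      Cfsg.IsQuasiDihedral (P : Subgroup X) := by
    refine hP.imp ?_ id
    rintro ⟨n, hn, h⟩
    refine ⟨_, ?_, h⟩
    calc 4 = 2 ^ 2 := by norm_num
      _ ≤ 2 ^ (n - 1) := Nat.pow_le_pow_right (by norm_num) (by omega)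
  -- an element of odd order acting trivially on `Q` is trivial
  have hcent : ∀ u : X, Odd (orderOf u) → (∀ a ∈ Q, u * a = a * u) → u = 1 := by
    intro u hu h
    have h1 : u ∈ Q := hQC (mem_centralizer_iff.2 fun a ha => (h a ha).symm)
    obtain ⟨j, hj⟩ := hQ2 ⟨u, h1⟩
    have h2 : u ^ 2 ^ j = 1 := congrArg Subtype.val hj
    have h3 : (orderOf u).Coprime (2 ^ j) := Nat.Coprime.pow_right j hu.coprime_two_right
    exact orderOf_eq_one_iff.1 (Nat.eq_one_of_dvd_coprimes h3 dvd_rfl (orderOf_dvd_of_pow_eq_one h2))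
  -- the order of `X`
  obtain ⟨a, ha⟩ : ∃ a : ℕ, Nat.card X ∣ 2 ^ a * 3 := by
    obtain ⟨x0, hidx, -⟩ := OddHalf.D3.BTwo.exists_cyc (S := (P : Subgroup X)) hP'
    -- the cyclic subgroup of `Q`
    let A : Subgroup Q := (zpowers x0).comap (inclusion hQP)
    have hAc : IsCyclic A := by
      let f : A →* zpowers x0 := ((inclusion hQP).comp A.subtype).codRestrict (zpowers x0) (fun x => x.2)
      exact isCyclic_of_injective f (by
        intro x y hxy
        have h2 : (inclusion hQP) (x : Q) = (inclusion hQP) (y : Q) := congrArg Subtype.val hxy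
        exact Subtype.ext (inclusion_injective hQP h2))
    have hAi : A.index ≤ 2 := by
      have hn : (zpowers x0).Normal := normal_of_index_eq_two hidx
      rw [← hidx, index_comap]
      exact Nat.le_of_dvd (Nat.pos_of_ne_zero index_ne_zero_of_finite) (relIndex_dvd_index_of_normal _ _)
    obtain ⟨a, ha⟩ := card_aut hQ2 A hAc hAi
    let φ : X →* MulAut Q := MulAut.conjNormal
    have hker : φ.ker = centralizer (Q : Set X) := by
      ext y
      rw [MonoidHom.mem_ker, mem_centralizer_iff]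
      constructor
      · intro h a ha
        have h1 := DFunLike.congr_fun h (⟨a, ha⟩ : Q)
        have h2 : y * a * y⁻¹ = a := congrArg Subtype.val h1
        calc a * y = y * a * y⁻¹ * y := by rw [h2]
          _ = y * a := by group
      · intro h
        apply MulEquiv.ext
        intro a
        apply Subtype.ext
        show y * (a : X) * y⁻¹ = a
        rw [← h a a.2]; group
    have h2 : Nat.card φ.ker * Nat.card φ.range = Nat.card X := by
      rw [← Subgroup.index_ker]
      exact card_mul_index _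
    obtain ⟨b, hb⟩ := IsPGroup.iff_card.1 (hQ2.to_le (hker ▸ hQC : φ.ker ≤ Q))
    refine ⟨b + a, ?_⟩
    rw [← h2, hb, pow_add, mul_assoc]
    exact mul_dvd_mul_left _ ((card_subgroup_dvd_card _).trans ha)
  -- elements of odd order have order 1 or 3
  have h3 : ∀ g : X, ¬ 2 ∣ orderOf g → g = 1 ∨ orderOf g = 3 := by
    intro g hg
    have h4 : orderOf g ∣ 2 ^ a * 3 := (orderOf_dvd_natCard g).trans ha
    have h5 : (orderOf g).Coprime (2 ^ a) :=
      Nat.Coprime.pow_right a ((Nat.Prime.coprime_iff_not_dvd Nat.prime_two).2 hg).symm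
    have h6 : orderOf g ∣ 3 := h5.dvd_of_dvd_mul_left h4
    rcases (Nat.dvd_prime Nat.prime_three).1 h6 with h | h
    · exact Or.inl (orderOf_eq_one_iff.1 h)
    · exact Or.inr h
  by_cases hs : ∃ s : X, orderOf s = 3
  swap
  · refine ⟨1, fun g hg => ?_⟩
    rcases h3 g hg with h | h
    · exact Or.inl h
    · exact absurd ⟨g, h⟩ hs
  obtain ⟨s, hs⟩ := hs
  -- subgroups of order 3 are Sylow
  have hcard3 : (Nat.card X).factorization 3 ≤ 1 := by
    have h4 : (Nat.card X).factorization 3 ≤ (2 ^ a * 3).factorization 3 :=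
      (Nat.factorization_le_iff_dvd Nat.card_pos.ne' (by positivity)).2 ha 3
    have h5 : (2 ^ a * 3).factorization 3 = 1 := by
      rw [Nat.factorization_mul (by positivity) (by norm_num), Nat.factorization_pow]
      simp [Nat.Prime.factorization Nat.prime_two, Nat.Prime.factorization Nat.prime_three]
    omega
  have hSyl : ∀ (g : X), orderOf g = 3 → ∃ R : Sylow 3 X, (R : Subgroup X) = zpowers g := by
    intro g hg
    have h4 : IsPGroup 3 (zpowers g) := IsPGroup.of_card (n := 1) (by rw [Nat.card_zpowers, hg, pow_one])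
    obtain ⟨R, hR⟩ := h4.exists_le_sylow
    refine ⟨R, (eq_of_le_of_card_ge hR ?_).symm⟩
    rw [Nat.card_zpowers, hg, R.card_eq_multiplicity]
    calc 3 ^ (Nat.card X).factorization 3 ≤ 3 ^ 1 := Nat.pow_le_pow_right (by norm_num) hcard3
      _ = 3 := by norm_num
  obtain ⟨R, hR⟩ := hSyl s hs
  have hsR : s ∈ (R : Subgroup X) := by rw [hR]; exact mem_zpowers s
  -- `s` is real
  have hreal : ∃ n : X, n * s * n⁻¹ = s⁻¹ := by
    by_contra hcon
    push Not at hcon
    have hN : normalizer ((R : Subgroup X) : Set X) ≤ centralizer ((R : Subgroup X) : Set X) := by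
      intro n hn
      have h4 : n * s * n⁻¹ ∈ (R : Subgroup X) := (mem_normalizer_iff.1 hn s).1 hsR
      rw [hR] at h4
      obtain ⟨k, hk⟩ := mem_zpowers_iff.1 h4
      have h5 : n * s * n⁻¹ = s := by
        have h6 : s ^ (3 : ℕ) = 1 := by rw [← hs]; exact pow_orderOf_eq_one s
        have h7 : s ^ k = s ^ (k % 3) := by
          have := zpow_mod_orderOf s k
          rw [hs] at this
          exact_mod_cast this.symm
        have h8 : k % 3 = 0 ∨ k % 3 = 1 ∨ k % 3 = 2 := by omega
        rcases h8 with h | h | h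
        · exfalso
          rw [h7, h, zpow_zero] at hk
          have h9 : s = 1 := by
            have : n * s * n⁻¹ = n * 1 * n⁻¹ := by rw [← hk]; group
            exact mul_left_cancel (mul_right_cancel this)
          rw [h9, orderOf_one] at hs
          norm_num at hs
        · rw [h7, h, zpow_one] at hk
          exact hk.symm
        · exfalso
          apply hcon n
          rw [h7, h] at hk
          rw [← hk, eq_inv_iff_mul_eq_one]
          calc s ^ (2 : ℤ) * s = s ^ 3 := by group
            _ = 1 := h6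
      rw [mem_centralizer_iff]
      intro t ht
      rw [SetLike.mem_coe, hR] at ht
      obtain ⟨l, rfl⟩ := mem_zpowers_iff.1 ht
      have h6 : Commute n s := by
        show n * s = s * n
        calc n * s = n * s * n⁻¹ * n := by group
          _ = s * n := by rw [h5]
      exact ((h6.zpow_right l).eq).symm
    set K := (MonoidHom.transferSylow R hN).ker with hK
    have hKc : K.IsComplement' (R : Subgroup X) := MonoidHom.ker_transferSylow_isComplement' R hN
    have hcR : Nat.card (R : Subgroup X) = 3 := by rw [hR, Nat.card_zpowers, hs]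
    have hKcard : Nat.card K * 3 = Nat.card X := by rw [← hcR]; exact hKc.card_mul_card
    have hK2 : IsPGroup 2 K := by
      have h4 : Nat.card K ∣ 2 ^ a := by
        have h5 : Nat.card K * 3 ∣ 2 ^ a * 3 := hKcard ▸ ha
        exact Nat.dvd_of_mul_dvd_mul_right (by norm_num) h5
      obtain ⟨k, -, hk⟩ := (Nat.dvd_prime_pow Nat.prime_two).1 h4
      exact IsPGroup.of_card hk
    have hKQ : K ≤ Q := Lib.Cores.le_pCore inferInstance hK2
    have hPQ : (P : Subgroup X) = Q := by
      symm
      apply eq_of_le_of_card_ge hQP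
      have h4 : Nat.card (P : Subgroup X) ∣ Nat.card K := by
        have h5 : Nat.card (P : Subgroup X) ∣ Nat.card K * 3 := hKcard ▸ card_subgroup_dvd_card _
        obtain ⟨k, hk⟩ := IsPGroup.iff_card.1 P.isPGroup'
        refine Nat.Coprime.dvd_of_dvd_mul_right ?_ h5
        rw [hk]
        exact Nat.Coprime.pow_left k (by norm_num)
      exact (Nat.le_of_dvd Nat.card_pos h4).trans (card_le_of_le hKQ)
    have hso : Odd (orderOf s) := by rw [hs]; decide
    have h4 := H235.SdSolv.cent_of_aut hso (S3116.result P.isPGroup' hP4)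
      (fun a ha => by rw [hPQ] at ha ⊢; exact hQn.conj_mem a ha s)
    have h5 : s = 1 := hcent s hso (fun a ha => h4 a (hQP ha))
    rw [h5, orderOf_one] at hs
    norm_num at hs
  refine ⟨s, fun g hg => ?_⟩
  rcases h3 g hg with h | h
  · exact Or.inl h
  right
  obtain ⟨R', hR'⟩ := hSyl g h
  obtain ⟨x, hx⟩ := MulAction.exists_smul_eq X R' R
  have hgR' : g ∈ (R' : Subgroup X) := by rw [hR']; exact mem_zpowers g
  have h4 : x * g * x⁻¹ ∈ (R : Subgroup X) := by
    rw [← hx]
    exact ⟨g, hgR', rfl⟩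
  rw [hR] at h4
  obtain ⟨k, hk⟩ := mem_zpowers_iff.1 h4
  have h6 : s ^ (3 : ℕ) = 1 := by rw [← hs]; exact pow_orderOf_eq_one s
  have h7 : s ^ k = s ^ (k % 3) := by
    have := zpow_mod_orderOf s k
    rw [hs] at this
    exact_mod_cast this.symm
  have h8 : k % 3 = 0 ∨ k % 3 = 1 ∨ k % 3 = 2 := by omega
  rcases h8 with h8 | h8 | h8
  · exfalso
    rw [h7, h8, zpow_zero] at hk
    have h9 : g = 1 := by
      have : x * g * x⁻¹ = x * 1 * x⁻¹ := by rw [← hk]; group
      exact mul_left_cancel (mul_right_cancel this)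
    rw [h9, orderOf_one] at h
    norm_num at h
  · rw [h7, h8, zpow_one] at hk
    exact isConj_iff.2 ⟨x, hk.symm⟩
  · obtain ⟨n, hn⟩ := hreal
    have h9 : s ^ k = s⁻¹ := by
      rw [h7, h8, eq_inv_iff_mul_eq_one]
      calc s ^ (2 : ℤ) * s = s ^ 3 := by group
        _ = 1 := h6
    have h10 : n * s⁻¹ * n⁻¹ = s := by
      have : (n * s * n⁻¹)⁻¹ = s := by rw [hn, inv_inv]
      calc n * s⁻¹ * n⁻¹ = (n * s * n⁻¹)⁻¹ := by group
        _ = s := this
    refine isConj_iff.2 ⟨n * x, ?_⟩
    calc n * x * g * (n * x)⁻¹ = n * (x * g * x⁻¹) * n⁻¹ := by group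
      _ = n * s⁻¹ * n⁻¹ := by rw [← hk, h9]
      _ = s := h10

end Cfsg.Agent.H624.TameL2
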